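import Cfsg.Agent.H74.NcA

/-!
S4386: `G` preserves the lines (`ColInv`).
-/

set_option autoImplicit false
set_option linter.unusedSectionVars false

namespace Cfsg.Agent.H74.Nc

open Subgroup Matrix Module
open Cfsg.Agent.H584.NC Cfsg.Agent.H74.Psl
open scoped LinearAlgebra.Projectivization

universe u

section

variable {G : Type u} [Group G] {S M : Subgroup G} {r : ℕ} {F : Type} [Field F] [Fintype F] {d : ℕ}
  {e : S ≃* Matrix.ProjectiveSpecialLinearGroup (Fin d) F} {Φ : (G ⧸ M) ≃ ℙ F (Fin d → F)}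

/-- the orbit of `c` under the stabiliser of `a` and `b` in `S` -/
def orb (S : Subgroup G) {M : Subgroup G} (a b c : G ⧸ M) : Set (G ⧸ M) :=
  {ω | ∃ s ∈ S, s • a = a ∧ s • b = b ∧ s • c = ω}

theorem orb_smul (hS : S.Normal) (g : G) (a b c : G ⧸ M) :
    orb S (g • a) (g • b) (g • c) = (fun ω => g • ω) '' orb S a b c := by
  ext ω
  constructor
  · rintro ⟨s, hs, h1, h2, rfl⟩
    refine ⟨(g⁻¹ * s * g) • c, ⟨g⁻¹ * s * g, ?_, ?_, ?_, rfl⟩, ?_⟩
    · have := hS.conj_mem s hs g⁻¹
      rwa [inv_inv] at this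
    · rw [mul_smul, mul_smul, h1, inv_smul_smul]
    · rw [mul_smul, mul_smul, h2, inv_smul_smul]
    · change g • (g⁻¹ * s * g) • c = _
      rw [← mul_smul, ← mul_smul]
      congr 1
      group
  · rintro ⟨_, ⟨s, hs, h1, h2, rfl⟩, rfl⟩
    refine ⟨g * s * g⁻¹, hS.conj_mem s hs g, ?_, ?_, ?_⟩
    · rw [← mul_smul, inv_mul_cancel_right, mul_smul, h1]
    · rw [← mul_smul, inv_mul_cancel_right, mul_smul, h2]
    · change (g * s * g⁻¹) • g • c = g • s • c
      rw [← mul_smul, inv_mul_cancel_right, mul_smul]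

theorem ncard_orb (hS : S.Normal) (g : G) (a b c : G ⧸ M) :
    (orb S (g • a) (g • b) (g • c)).ncard = (orb S a b c).ncard := by
  rw [orb_smul hS]
  exact Set.ncard_image_of_injective _ (MulAction.injective g)

/-- off the line the orbit has at least `q` points -/
theorem le_ncard_orb [Finite G] (h : Lin S M r F d e Φ) {a b c : G ⧸ M}
    (hc : ¬ (Φ c).submodule ≤ (Φ a).submodule ⊔ (Φ b).submodule) :
    Fintype.card F ≤ (orb S a b c).ncard := by
  obtain ⟨va, ha, rfl⟩ := exists_pt (Φ := Φ) a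
  obtain ⟨vb, hb, rfl⟩ := exists_pt (Φ := Φ) b
  obtain ⟨vc, hc', rfl⟩ := exists_pt (Φ := Φ) c
  rw [le_iff, sub_pt, sub_pt] at hc
  obtain ⟨f, h1, h2⟩ := sep hc
  have fa : f va = 0 := h1 va (Submodule.mem_sup_left (Submodule.mem_span_singleton_self _))
  have fb : f vb = 0 := h1 vb (Submodule.mem_sup_right (Submodule.mem_span_singleton_self _))
  have key : ∀ x : F, f (x • va) = 0 := fun x => by rw [map_smul, fa, smul_zero]
  have hn : ∀ x : F, vc + x • va ≠ 0 := by
    intro x h3
    have := congrArg f h3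
    rw [map_add, key, map_zero, h2, add_zero] at this
    exact one_ne_zero this
  let m : F → orb S (pt Φ va ha) (pt Φ vb hb) (pt Φ vc hc') := fun x => ⟨pt Φ (vc + x • va) (hn x), by
    refine ⟨psi e (T (x • va) f (key x)), (psi e _).2, ?_, ?_, ?_⟩
    · have := psi_pt h (T (x • va) f (key x)) va ha
      refine this.trans ?_
      congr 1
      rw [T_smul, fa, zero_smul, add_zero]
    · have := psi_pt h (T (x • va) f (key x)) vb hb
      refine this.trans ?_
      congr 1
      rw [T_smul, fb, zero_smul, add_zero]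
    · have := psi_pt h (T (x • va) f (key x)) vc hc'
      refine this.trans ?_
      congr 1
      rw [T_smul, h2, one_smul]⟩
  have hm : Function.Injective m := by
    intro x y hxy
    have h3 : pt Φ (vc + x • va) (hn x) = pt Φ (vc + y • va) (hn y) := congrArg Subtype.val hxy
    rw [pt_eq_iff, Submodule.mem_span_singleton] at h3
    obtain ⟨t, ht⟩ := h3
    have h4 := congrArg f ht
    rw [map_smul, map_add, map_add, key, key, h2, add_zero, smul_eq_mul, mul_one] at h4
    rw [h4, one_smul, add_right_inj] at ht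
    exact (smul_left_injective F ha ht).symm
  have h5 := Nat.card_le_card_of_injective m hm
  rwa [Nat.card_eq_fintype_card, Nat.card_coe_set_eq] at h5

/-- on the line the orbit has at most `q - 1` points -/
theorem ncard_orb_le [Finite G] (h : Lin S M r F d e Φ) {a b c : G ⧸ M} (hca : c ≠ a) (hcb : c ≠ b)
    (hc : (Φ c).submodule ≤ (Φ a).submodule ⊔ (Φ b).submodule) :
    (orb S a b c).ncard < Fintype.card F := by
  obtain ⟨va, ha, rfl⟩ := exists_pt (Φ := Φ) a
  obtain ⟨vb, hb, rfl⟩ := exists_pt (Φ := Φ) b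
  obtain ⟨vc, hc', rfl⟩ := exists_pt (Φ := Φ) c
  rw [le_iff, sub_pt, sub_pt] at hc
  by_cases hab : vb ∈ Submodule.span F ({va} : Set (Fin d → F))
  · exfalso
    apply hca
    rw [pt_eq_iff]
    rw [sup_eq_left.2 ((Submodule.span_singleton_le_iff_mem _ _).2 hab)] at hc
    exact hc
  have hn : ∀ x : F, x • va + vb ≠ 0 := by
    intro x h1
    apply hab
    rw [Submodule.mem_span_singleton]
    exact ⟨-x, by rw [neg_smul, neg_eq_iff_add_eq_zero, h1]⟩
  have hsub : orb S (pt Φ va ha) (pt Φ vb hb) (pt Φ vc hc') ⊆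
      Set.range (fun x : {x : F // x ≠ 0} => pt Φ (x.1 • va + vb) (hn x.1)) := by
    rintro _ ⟨s, hs, h1, h2, rfl⟩
    obtain ⟨g, hg⟩ := psi_surjective (e := e) ⟨s, hs⟩
    have h1' : psi e g • pt Φ va ha = pt Φ va ha := by rw [hg]; exact h1
    have h2' : psi e g • pt Φ vb hb = pt Φ vb hb := by rw [hg]; exact h2
    have h3' : s • pt Φ vc hc' = psi e g • pt Φ vc hc' := by rw [hg]; rfl
    rw [h3', psi_pt h]
    have hca' : psi e g • pt Φ vc hc' ≠ pt Φ va ha := by
      intro h4
      rw [← h1'] at h4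
      exact hca (MulAction.injective _ h4)
    have hcb' : psi e g • pt Φ vc hc' ≠ pt Φ vb hb := by
      intro h4
      rw [← h2'] at h4
      exact hcb (MulAction.injective _ h4)
    rw [psi_pt h, Ne, pt_eq_iff] at hca' hcb'
    rw [psi_pt h, pt_eq_iff, Submodule.mem_span_singleton] at h1' h2'
    obtain ⟨α, hα⟩ := h1'
    obtain ⟨β, hβ⟩ := h2'
    rw [Submodule.mem_sup] at hc
    obtain ⟨y1, hy1, y2, hy2, hy⟩ := hc
    rw [Submodule.mem_span_singleton] at hy1 hy2
    obtain ⟨x, rfl⟩ := hy1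
    obtain ⟨y, rfl⟩ := hy2
    have h5 : g • vc = (x * α) • va + (y * β) • vb := by
      rw [← hy, smul_add, smul_comm g x, smul_comm g y, ← hα, ← hβ, smul_smul, smul_smul]
    have hx : x * α ≠ 0 := by
      intro h6
      apply hcb'
      rw [h5, h6, zero_smul, zero_add]
      exact Submodule.smul_mem _ _ (Submodule.mem_span_singleton_self _)
    have hy : y * β ≠ 0 := by
      intro h6
      apply hca'
      rw [h5, h6, zero_smul, add_zero]
      exact Submodule.smul_mem _ _ (Submodule.mem_span_singleton_self _)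
    refine ⟨⟨(y * β)⁻¹ * (x * α), mul_ne_zero (inv_ne_zero hy) hx⟩, ?_⟩
    rw [pt_eq_iff, Submodule.mem_span_singleton]
    refine ⟨(y * β)⁻¹, ?_⟩
    rw [h5, smul_add, smul_smul, smul_smul, inv_mul_cancel₀ hy, one_smul]
  classical
  have h6 := (Set.ncard_le_ncard hsub (Set.toFinite _)).trans (Nat.card_coe_set_eq _ ▸ Finite.card_range_le _)
  refine lt_of_le_of_lt h6 ?_
  rw [Nat.card_eq_fintype_card]
  exact Fintype.card_subtype_lt (x := (0 : F)) (by simp)

/-- `G` preserves the lines (any `d`). -/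
theorem colInv' {G : Type u} [Group G] [Finite G] {S M : Subgroup G} {r : ℕ} {F : Type} [Field F] [Fintype F] {d : ℕ}
    {e : S ≃* Matrix.ProjectiveSpecialLinearGroup (Fin d) F} {Φ : (G ⧸ M) ≃ ℙ F (Fin d → F)}
    (h : Lin S M r F d e Φ) : ColInv M F d Φ := by
  intro g a b c hc
  by_cases hca : c = a
  · rw [hca]
    exact le_sup_left
  by_cases hcb : c = b
  · rw [hcb]
    exact le_sup_right
  by_contra hcon
  have h1 := le_ncard_orb h hcon
  rw [ncard_orb h.pi.normal] at h1
  exact absurd (ncard_orb_le h hca hcb hc) (not_lt.2 h1)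

/-- `G` preserves the lines (task 512). -/
theorem colInv {G : Type u} [Group G] [Finite G] {S M : Subgroup G} {r : ℕ} {F : Type} [Field F] [Fintype F] {d : ℕ}
    (_hd : 3 ≤ d) {e : S ≃* Matrix.ProjectiveSpecialLinearGroup (Fin d) F} {Φ : (G ⧸ M) ≃ ℙ F (Fin d → F)}
    (h : Lin S M r F d e Φ) : ColInv M F d Φ :=
  colInv' h

end

end Cfsg.Agent.H74.Nc
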