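import Cfsg.Agent.H74.NcA

/-!
S4386: a subgroup of index `r` fixes a proper non-zero subspace (`FixSub`).
-/

set_option autoImplicit false
set_option linter.unusedSectionVars false

namespace Cfsg.Agent.H74.Nc

open Subgroup Matrix Module
open Cfsg.Agent.H584.NC Cfsg.Agent.H74.Psl
open scoped LinearAlgebra.Projectivization

universe u

section

variable {F : Type} [Field F] [Fintype F] {d : ℕ}

local notation "𝕍" => Fin d → F
local notation "𝕊" => Matrix.SpecialLinearGroup (Fin d) F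

/-- the group of all transvections with axis `ker f` -/
def tr (f : Dual F 𝕍) : Multiplicative (LinearMap.ker f) →* 𝕊 where
  toFun v := T (Multiplicative.toAdd v).1 f (LinearMap.mem_ker.1 (Multiplicative.toAdd v).2)
  map_one' := by
    apply smul_ext
    intro x
    simp
  map_mul' v w := by
    rw [T_mul_left]
    rfl

theorem tr_apply (f : Dual F 𝕍) (v : 𝕍) (hv : f v = 0) :
    tr f (Multiplicative.ofAdd ⟨v, LinearMap.mem_ker.2 hv⟩) = T v f hv := rfl

/-- A subgroup of index prime to `p` contains all the transvections with a certain axis. -/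
theorem exists_axis {p : ℕ} [hp : Fact p.Prime] [CharP F p] {L : Subgroup 𝕊} (hL : ¬ p ∣ L.index) (hd : 1 ≤ d) :
    ∃ f : Dual F 𝕍, f ≠ 0 ∧ ∀ (v : 𝕍) (hv : f v = 0), T v f hv ∈ L := by
  obtain ⟨f, hf⟩ : ∃ f : Dual F 𝕍, f ≠ 0 := by
    refine ⟨LinearMap.proj ⟨0, hd⟩, fun h => ?_⟩
    have := LinearMap.congr_fun h (fun _ => 1)
    simp at this
  have hpg : IsPGroup p (Multiplicative (LinearMap.ker f)) := by
    intro v
    refine ⟨1, ?_⟩
    rw [pow_one]
    apply Multiplicative.toAdd.injective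
    rw [toAdd_pow, toAdd_one]
    apply Subtype.ext
    change p • (Multiplicative.toAdd v).1 = 0
    rw [← Nat.cast_smul_eq_nsmul F, CharP.cast_eq_zero, zero_smul]
  let := MulAction.compHom (𝕊 ⧸ L) (tr f)
  have hfix := hpg.nonempty_fixed_point_of_prime_not_dvd_card (𝕊 ⧸ L) hL
  obtain ⟨x, hx⟩ := hfix
  induction x using QuotientGroup.induction_on with
  | H g =>
    refine ⟨co g⁻¹ f, ?_, ?_⟩
    · intro h
      apply hf
      ext x
      have := LinearMap.congr_fun h (g⁻¹ • (Pi.single x 1 : 𝕍))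
      rw [co_self] at this
      simpa using this
    · intro w hw
      have hw' : f (g • w) = 0 := by
        rw [co_apply, inv_inv] at hw
        exact hw
      have h1 := hx (Multiplicative.ofAdd ⟨g • w, LinearMap.mem_ker.2 hw'⟩)
      have h2 : (QuotientGroup.mk (T (g • w) f hw' * g) : 𝕊 ⧸ L) = QuotientGroup.mk g := h1
      rw [eq_comm, QuotientGroup.eq, ← mul_assoc] at h2
      have h3 := T_conj g⁻¹ (g • w) f hw'
      rw [inv_inv] at h3
      rw [h3] at h2
      rwa [T_congr _ (inv_smul_smul g w) rfl] at h2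

end

section

variable {G : Type u} [Group G] {S M : Subgroup G} {r : ℕ} {F : Type} [Field F] [Fintype F] {d : ℕ}
  {e : S ≃* Matrix.ProjectiveSpecialLinearGroup (Fin d) F} {Φ : (G ⧸ M) ≃ ℙ F (Fin d → F)}

theorem not_dvd_r {p : ℕ} [hp : Fact p.Prime] [CharP F p] (h : Lin S M r F d e Φ) : ¬ p ∣ r := by
  intro h1
  have h2 : p ∣ Fintype.card F ^ d - 1 := h.card ▸ Dvd.dvd.mul_right h1 _
  have h3 : p ∣ Fintype.card F := by
    have h4 : ((Fintype.card F : ℕ) : F) = 0 := FiniteField.cast_card_eq_zero F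
    exact (CharP.cast_eq_zero_iff F p _).1 h4
  have h4 : p ∣ Fintype.card F ^ d := dvd_pow h3 (by have := h.two_le; omega)
  have h5 : 1 ≤ Fintype.card F ^ d := Nat.one_le_pow _ _ Fintype.card_pos
  have h6 : p ∣ 1 := by
    have := (Nat.dvd_sub_iff_right h5 h4).1 h2
    exact this
  exact hp.out.one_lt.ne' (Nat.dvd_one.1 h6)

/-- **Task 482.** -/
theorem fixSub {G : Type u} [Group G] [Finite G] {S M : Subgroup G} {r : ℕ} {F : Type} [Field F] [Fintype F] {d : ℕ}
    {e : S ≃* Matrix.ProjectiveSpecialLinearGroup (Fin d) F} {Φ : (G ⧸ M) ≃ ℙ F (Fin d → F)}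
    (h : Lin S M r F d e Φ) : FixSub S M r F d Φ := by
  intro K hK hsup
  obtain ⟨p, hchar⟩ := CharP.exists F
  have hp : Fact p.Prime := ⟨CharP.char_is_prime F p⟩
  set L : Subgroup (Matrix.SpecialLinearGroup (Fin d) F) := (K.subgroupOf S).comap (psi e) with hLdef
  have hLi : L.index = r := by
    rw [hLdef, Subgroup.index_comap_of_surjective _ psi_surjective]
    exact h.pi.index_subgroupOf hsup hK
  obtain ⟨f, hf, hT⟩ := exists_axis (L := L) (p := p) (by rw [hLi]; exact not_dvd_r h)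
    (by have := h.two_le; omega)
  -- a point whose orbit lies in the axis
  have key : ∃ v₀ : Fin d → F, v₀ ≠ 0 ∧ ∀ g ∈ L, f (g • v₀) = 0 := by
    by_contra! hcon
    have h1 : ¬ r ∣ Nat.card ((K ⊓ S : Subgroup G)) := fun h2 =>
      h.pi.not_dvd hK (h2.trans (Subgroup.card_dvd_of_le inf_le_left))
    apply h.pi.not_transitive h1
    have hn : ∀ v : Fin d → F, f v = 1 → v ≠ 0 := by
      rintro v hv rfl
      rw [map_zero] at hv
      exact zero_ne_one hv
    -- every point is equivalent to one with `f v = 1`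
    have h3 : ∀ ω : G ⧸ M, ∃ s : G, s ∈ K ⊓ S ∧ ∃ (v : Fin d → F) (hv : f v = 1), s • ω = pt Φ v (hn v hv) := by
      intro ω
      obtain ⟨v, hv, rfl⟩ := exists_pt (Φ := Φ) ω
      obtain ⟨g, hg, h4⟩ := hcon v hv
      refine ⟨psi e g, ⟨hg, (psi e g).2⟩, (f (g • v))⁻¹ • g • v, ?_, ?_⟩
      · rw [map_smul, smul_eq_mul, inv_mul_cancel₀ h4]
      · refine (psi_pt h g v hv).trans ?_
        rw [eq_comm, pt_eq_iff]
        exact Submodule.smul_mem _ _ (Submodule.mem_span_singleton_self _)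
    constructor
    intro ω₁ ω₂
    obtain ⟨s₁, hs₁, v₁, hv₁, h4⟩ := h3 ω₁
    obtain ⟨s₂, hs₂, v₂, hv₂, h5⟩ := h3 ω₂
    have h6 : f (v₂ - v₁) = 0 := by rw [map_sub, hv₁, hv₂, sub_self]
    have h7 := psi_pt h (T (v₂ - v₁) f h6) v₁ (hn v₁ hv₁)
    have h8 : psi e (T (v₂ - v₁) f h6) • pt Φ v₁ (hn v₁ hv₁) = pt Φ v₂ (hn v₂ hv₂) := by
      rw [h7]
      congr 1
      rw [T_smul, hv₁, one_smul, add_sub_cancel]
    have h9 : ((psi e (T (v₂ - v₁) f h6) : S) : G) ∈ K ⊓ S := ⟨hT _ h6, (psi e _).2⟩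
    refine ⟨⟨s₂⁻¹ * (psi e (T (v₂ - v₁) f h6) : S) * s₁, mul_mem (mul_mem (inv_mem hs₂) h9) hs₁⟩, ?_⟩
    change (s₂⁻¹ * (psi e (T (v₂ - v₁) f h6) : S) * s₁) • ω₁ = ω₂
    rw [mul_smul, mul_smul, h4, inv_smul_eq_iff, h5]
    exact h8
  obtain ⟨v₀, hv₀, hker⟩ := key
  refine ⟨Submodule.span F {x | ∃ g ∈ L, x = g • v₀}, ?_, ?_, ?_⟩
  · intro h1
    rw [Submodule.span_eq_bot] at h1
    exact hv₀ (h1 v₀ ⟨1, L.one_mem, (one_smul _ _).symm⟩)
  · intro h1
    apply hf
    have h2 : Submodule.span F {x | ∃ g ∈ L, x = g • v₀} ≤ LinearMap.ker f := by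
      rw [Submodule.span_le]
      rintro _ ⟨g, hg, rfl⟩
      exact hker g hg
    rw [h1, top_le_iff, LinearMap.ker_eq_top] at h2
    exact h2
  · intro s hs ω hω
    obtain ⟨g, rfl⟩ := psi_surjective (e := e) s
    obtain ⟨v, hv, rfl⟩ := exists_pt (Φ := Φ) ω
    rw [psi_pt h, le_iff]
    rw [le_iff] at hω
    have hgL : g ∈ L := hs
    have h1 : Submodule.span F {x | ∃ g ∈ L, x = g • v₀} ≤
        (Submodule.span F {x | ∃ g ∈ L, x = g • v₀}).comap (DistribSMul.toLinearMap F (Fin d → F) g) := by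
      rw [Submodule.span_le]
      rintro _ ⟨k, hk, rfl⟩
      exact Submodule.subset_span ⟨g * k, L.mul_mem hgL hk, (mul_smul g k v₀).symm⟩
    exact h1 hω

end

end Cfsg.Agent.H74.Nc
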